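import Cfsg.Agent.SmallOrder.SylowEight.Basic
import Cfsg.Agent.Forms.PermModuleQuad

/-! The Sylow two-subgroups of `O₆⁻(2)` and `S₈`. -/

set_option autoImplicit false
set_option maxRecDepth 100000

namespace Cfsg.Agent.SmallOrder.SylowEight

open Matrix

abbrev OIdx : Type := (Fin 2 ⊕ Fin 2) ⊕ Fin 2

/-- The order of the coordinates. -/
def oIdx : OIdx → Fin 6 :=
  Sum.elim (Sum.elim ![0, 1] ![2, 3]) ![4, 5]

/-- The tabulated matrix. -/
def oM (i : Fin 128) : Matrix OIdx OIdx (ZMod 2) := decodeMat 2 6 oIdx (orthMats.getD i.val 0)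

/-- The tabulated permutation. -/
def oL (i : Fin 128) : Fin 8 → Fin 8 := decodePerm (orthPerms.getD i.val 0)

/-- The tabulated step. -/
def oT : Fin 3 → Fin 128 → Fin 128 := step orthStep 128

theorem oM_zero : oM 0 = 1 := by decide +kernel

theorem oM_inj : ∀ i j : Fin 128, oM i = oM j → i = j := by decide +kernel

theorem oL_zero : ∀ x, oL 0 x = x := by decide +kernel

theorem oL_inj : ∀ i j : Fin 128, oL i = oL j → i = j := by decide +kernel

theorem o_par : ∀ i : Fin 128, i ≠ 0 → ∃ k j, j < i ∧ oT k j = i := by decide +kernel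

/-- The generators as matrices. -/
def oGen : Fin 3 → Matrix OIdx OIdx (ZMod 2) := ![oM 1, oM 2, oM 3]

theorem oM_step : ∀ k i, oGen k * oM i = oM (oT k i) := by decide +kernel

theorem oGen_inv : ∀ k, ∃ i, oGen k * oM i = 1 := by decide +kernel

theorem oGen_isom : ∀ k v, Cfsg.quadFormMinus 2 (ZMod 2) 1 1 (oGen k *ᵥ v) =
    Cfsg.quadFormMinus 2 (ZMod 2) 1 1 v := by decide +kernel

/-- The generators of the symmetric side. -/
def oPerm : Fin 3 → Equiv.Perm (Fin 8) :=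
  ![Equiv.swap 0 1, Equiv.swap 0 2 * Equiv.swap 1 3,
    Equiv.swap 0 4 * Equiv.swap 1 5 * Equiv.swap 2 6 * Equiv.swap 3 7]

theorem o_aniso : ∀ z₁ z₂ : ZMod 2, z₁ ^ 2 + 1 * z₁ * z₂ + 1 * z₂ ^ 2 = 0 → z₁ = 0 ∧ z₂ = 0 := by
  decide

theorem oL_step : ∀ k i x, oPerm k (oL i x) = oL (oT k i) x := by decide +kernel

theorem orth_result (P' : Sylow 2 (Equiv.Perm (Fin 8)))
    (Q' : Sylow 2 ↥(Cfsg.isometryGroup (ZMod 2) (Cfsg.quadFormMinus 2 (ZMod 2) 1 1))) :
    Nonempty (↥(P' : Subgroup (Equiv.Perm (Fin 8))) ≃*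
      ↥(Q' : Subgroup ↥(Cfsg.isometryGroup (ZMod 2) (Cfsg.quadFormMinus 2 (ZMod 2) 1 1)))) := by
  classical
  choose j hj using oGen_inv
  let g : Fin 3 → ↥(Cfsg.isometryGroup (ZMod 2) (Cfsg.quadFormMinus 2 (ZMod 2) 1 1)) := fun k =>
    ⟨⟨oGen k, oM (j k), hj k, mul_eq_one_comm.1 (hj k)⟩, fun u _ => oGen_isom k u⟩
  obtain ⟨h1, h2, ⟨e⟩⟩ := joint g oPerm (0 : Fin 128) oT
    (fun x i => (((x : GL OIdx (ZMod 2)) : Matrix OIdx OIdx (ZMod 2))) = oM i)
    (fun x i => ∀ a, x a = oL i a)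
    oM_zero.symm (fun a => (oL_zero a).symm)
    (fun k x i hx => by
      show oGen k * _ = _
      rw [hx, oM_step])
    (fun k x i hx a => by rw [Equiv.Perm.mul_apply, hx, oL_step])
    o_par
    (fun x x' i a b => Subtype.ext (Units.ext (a.trans b.symm)))
    (fun x i j' a b => oM_inj i j' (a.symm.trans b))
    (fun x x' i a b => Equiv.ext fun c => (a c).trans (b c).symm)
    (fun x i j' a b => oL_inj i j' (funext fun c => (a c).symm.trans (b c)))
  haveI := Fact.mk Nat.prime_two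
  obtain ⟨f1⟩ := nonempty_equiv_sylow Q' _ (n := 7) (m := 405) (h1.trans (by norm_num)) (by
    rw [Forms.card_isometryGroup_minus 2 (ZMod.card 2) 1 1 o_aniso]
    norm_num [Finset.prod_range_succ]) (by norm_num)
  obtain ⟨f2⟩ := nonempty_equiv_sylow P' _ (n := 7) (m := 315) (h2.trans (by norm_num))
    (by rw [Nat.card_perm, Nat.card_fin]; norm_num [Nat.factorial]) (by norm_num)
  exact ⟨f2.trans (e.symm.trans f1.symm)⟩

end Cfsg.Agent.SmallOrder.SylowEight
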