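import Cfsg.Agent.SmallOrder.SylowEight.Basic
import Cfsg.Agent.Forms.SympBridge
import Cfsg.Agent.Forms.SympOrder
import Cfsg.Agent.Fusion.SpFour.Model
import Mathlib.GroupTheory.SpecificGroups.Alternating

/-! The Sylow two-subgroups of `PSp₄(3)` and `A₈`. -/

set_option autoImplicit false
set_option maxRecDepth 100000

namespace Cfsg.Agent.SmallOrder.SylowEight

open Matrix

/-- The order of the coordinates. -/
def sIdx : Fin 2 ⊕ Fin 2 → Fin 4 := Sum.elim ![0, 1] ![2, 3]

/-- The tabulated matrix. -/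
def sM (i : Fin 64) : Matrix (Fin 2 ⊕ Fin 2) (Fin 2 ⊕ Fin 2) (ZMod 3) :=
  decodeMat 3 4 sIdx (sympMats.getD i.val 0)

/-- The tabulated permutation. -/
def sL (i : Fin 64) : Fin 8 → Fin 8 := decodePerm (sympPerms.getD i.val 0)

/-- The tabulated step. -/
def sT : Fin 3 → Fin 64 → Fin 64 := step sympStep 64

theorem sM_zero : sM 0 = 1 ∨ sM 0 = -1 := by decide +kernel

theorem sM_inj : ∀ i j : Fin 64, (sM i = sM j ∨ sM i = -sM j) → i = j := by decide +kernel

theorem sL_zero : ∀ x, sL 0 x = x := by decide +kernel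

theorem sL_inj : ∀ i j : Fin 64, sL i = sL j → i = j := by decide +kernel

theorem s_par : ∀ i : Fin 64, i ≠ 0 → ∃ k j, j < i ∧ sT k j = i := by decide +kernel

/-- The generators as matrices. -/
def sGen : Fin 3 → Matrix (Fin 2 ⊕ Fin 2) (Fin 2 ⊕ Fin 2) (ZMod 3) := ![sM 1, sM 2, sM 3]

theorem sM_step : ∀ k i, sGen k * sM i = sM (sT k i) ∨ sGen k * sM i = -sM (sT k i) := by
  decide +kernel

theorem sGen_symp : ∀ k, sGen k * J (Fin 2) (ZMod 3) * (sGen k)ᵀ = J (Fin 2) (ZMod 3) := by
  decide +kernel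

/-- The generators of the alternating side. -/
def sPerm : Fin 3 → Equiv.Perm (Fin 8) :=
  ![Equiv.swap 4 6 * Equiv.swap 5 7, Equiv.swap 2 3 * Equiv.swap 6 7,
    Equiv.swap 0 4 * Equiv.swap 1 5 * Equiv.swap 2 6 * Equiv.swap 3 7]

theorem sPerm_even : ∀ k, Equiv.Perm.sign (sPerm k) = 1 := by decide +kernel

theorem sL_step : ∀ k i x, sPerm k (sL i x) = sL (sT k i) x := by decide +kernel

theorem symp_result (P : Sylow 2 ↥(alternatingGroup (Fin 8))) (Q : Sylow 2 (Cfsg.PSp 2 (ZMod 3))) :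
    Nonempty (↥(P : Subgroup ↥(alternatingGroup (Fin 8))) ≃* ↥(Q : Subgroup (Cfsg.PSp 2 (ZMod 3)))) := by
  classical
  haveI := Fact.mk Nat.prime_two
  let Z := Subgroup.center (Matrix.symplecticGroup (Fin 2) (ZMod 3))
  have hodd : Fintype.card (ZMod 3) % 2 = 1 := by simp [ZMod.card]
  let n : Matrix.symplecticGroup (Fin 2) (ZMod 3) := Fusion.SpFour.ng
  have hn : (n : Matrix (Fin 2 ⊕ Fin 2) (Fin 2 ⊕ Fin 2) (ZMod 3)) = -1 := Fusion.SpFour.coe_ng
  let g : Fin 3 → Cfsg.PSp 2 (ZMod 3) := fun k =>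
    QuotientGroup.mk (s := Z) ⟨sGen k, SymplecticGroup.mem_iff.mpr (sGen_symp k)⟩
  let h : Fin 3 → ↥(alternatingGroup (Fin 8)) := fun k =>
    ⟨sPerm k, Equiv.Perm.mem_alternatingGroup.mpr (sPerm_even k)⟩
  have hsame : ∀ y y' : Matrix.symplecticGroup (Fin 2) (ZMod 3),
      (QuotientGroup.mk (s := Z) y = QuotientGroup.mk (s := Z) y') →
      y'.1 = y.1 ∨ y'.1 = -y.1 := by
    intro y y' e
    rcases (Fusion.SpFour.mem_center_iff hodd).1 (QuotientGroup.eq.1 e) with h1 | h1
    · left; rw [inv_mul_eq_one.1 h1]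
    · right
      have : y' = y * n := by rw [show n = y⁻¹ * y' from h1.symm, mul_inv_cancel_left]
      rw [this, Submonoid.coe_mul, hn, mul_neg, mul_one]
  obtain ⟨h1, h2, ⟨e⟩⟩ := joint g h (0 : Fin 64) sT
    (fun x i => ∃ y : Matrix.symplecticGroup (Fin 2) (ZMod 3), QuotientGroup.mk (s := Z) y = x ∧
      (y.1 = sM i ∨ y.1 = -sM i))
    (fun x i => ∀ a, (x : Equiv.Perm (Fin 8)) a = sL i a)
    ⟨1, rfl, sM_zero.elim (fun e => Or.inl e.symm) (fun e => Or.inr (by rw [e, neg_neg]; rfl))⟩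
    (fun a => (sL_zero a).symm)
    (fun k x i ⟨y, hy, hyi⟩ => ⟨⟨sGen k, SymplecticGroup.mem_iff.mpr (sGen_symp k)⟩ * y,
      by rw [QuotientGroup.mk_mul, hy], by
        show sGen k * y.1 = _ ∨ sGen k * y.1 = _
        rcases hyi with e | e <;> rcases sM_step k i with e' | e' <;> rw [e]
        · exact Or.inl e'
        · exact Or.inr e'
        · exact Or.inr (by rw [mul_neg, e'])
        · exact Or.inl (by rw [mul_neg, e', neg_neg])⟩)
    (fun k x i hx a => by
      show (sPerm k * (x : Equiv.Perm (Fin 8))) a = _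
      rw [Equiv.Perm.mul_apply, hx, sL_step])
    s_par
    (fun x x' i ⟨y, hy, hyi⟩ ⟨y', hy', hyi'⟩ => by
      rw [← hy, ← hy']
      have : y' = y ∨ y' = y * n := by
        rcases hyi with e | e <;> rcases hyi' with e' | e'
        · exact Or.inl (Subtype.ext (e'.trans e.symm))
        · exact Or.inr (Subtype.ext (by rw [Submonoid.coe_mul, hn, e, e', mul_neg, mul_one]))
        · exact Or.inr (Subtype.ext (by rw [Submonoid.coe_mul, hn, e, e', mul_neg, mul_one, neg_neg]))
        · exact Or.inl (Subtype.ext (e'.trans e.symm))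
      rcases this with rfl | rfl
      · rfl
      · refine QuotientGroup.eq.2 ?_
        rw [inv_mul_cancel_left]
        exact (Fusion.SpFour.mem_center_iff hodd).2 (Or.inr rfl))
    (fun x i j ⟨y, hy, hyi⟩ ⟨y', hy', hyj⟩ => by
      refine sM_inj i j ?_
      rcases hsame y y' (hy.trans hy'.symm) with e | e <;> rw [e] at hyj <;>
        rcases hyi with e1 | e1 <;> rw [e1] at hyj <;> rcases hyj with e2 | e2 <;>
        first
          | exact Or.inl e2
          | exact Or.inr e2
          | exact Or.inl (neg_inj.1 e2)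
          | exact Or.inr (neg_eq_iff_eq_neg.1 e2)
          | (rw [neg_neg] at e2
             first
               | exact Or.inl e2
               | exact Or.inr e2
               | exact Or.inl (neg_inj.1 e2)
               | exact Or.inr (neg_eq_iff_eq_neg.1 e2)))
    (fun x x' i a b => Subtype.ext (Equiv.ext fun c => (a c).trans (b c).symm))
    (fun x i j a b => sL_inj i j (funext fun c => (a c).symm.trans (b c)))
  have hc : Nat.card (Cfsg.PSp 2 (ZMod 3)) = 25920 := by
    have h1 := Subgroup.card_eq_card_quotient_mul_card_subgroup Z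
    rw [Forms.card_symplecticGroup (ZMod.card 3), Forms.card_center_symplectic (ZMod.card 3) one_le_two] at h1
    norm_num [Finset.prod_range_succ, -Nat.card_eq_fintype_card] at h1
    show Nat.card (Matrix.symplecticGroup (Fin 2) (ZMod 3) ⧸ Z) = 25920
    omega
  have hA : Nat.card ↥(alternatingGroup (Fin 8)) = 20160 := by
    rw [nat_card_alternatingGroup, Nat.card_fin]; norm_num [Nat.factorial]
  obtain ⟨f1⟩ := nonempty_equiv_sylow Q _ (n := 6) (m := 405) (h1.trans (by norm_num))
    (by rw [hc]; norm_num) (by norm_num)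
  obtain ⟨f2⟩ := nonempty_equiv_sylow P _ (n := 6) (m := 315) (h2.trans (by norm_num))
    (by rw [hA]; norm_num) (by norm_num)
  exact ⟨f2.trans (e.symm.trans f1.symm)⟩

end Cfsg.Agent.SmallOrder.SylowEight
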