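import Cfsg.Agent.SmallOrder.SylowEight.Tables
import Mathlib.GroupTheory.Sylow
import Mathlib.GroupTheory.Perm.Basic
import Mathlib.Data.ZMod.Basic
import Mathlib.LinearAlgebra.Matrix.Defs
import Mathlib.Algebra.Group.Subgroup.Finite

/-!
Two groups given by generators with a common multiplication table generate isomorphic subgroups.
-/

set_option autoImplicit false

namespace Cfsg.Agent.SmallOrder.SylowEight

/-- Decode a matrix from the base `p` digits of a code. -/
def decodeMat {ι : Type*} (p n : ℕ) (f : ι → Fin n) (c : ℕ) : Matrix ι ι (ZMod p) :=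
  fun i j => ((c / p ^ (n * (f i).val + (f j).val) % p : ℕ) : ZMod p)

/-- Decode a map of eight points. -/
def decodePerm (c : ℕ) : Fin 8 → Fin 8 := fun x => ⟨c / 8 ^ x.val % 8, Nat.mod_lt _ (by norm_num)⟩

/-- Look up a step of the table. -/
def step (l : List ℕ) (N : ℕ) [NeZero N] (k : Fin 3) (i : Fin N) : Fin N :=
  Fin.ofNat N (l.getD (N * k.val + i.val) 0)

variable {G H : Type*} [Group G] [Group H]

theorem joint [Finite G] [Finite H] {r N : ℕ} (g : Fin r → G) (h : Fin r → H) (z : Fin N)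
    (t : Fin r → Fin N → Fin N) (R : G → Fin N → Prop) (S : H → Fin N → Prop)
    (R1 : R 1 z) (S1 : S 1 z) (Rmul : ∀ k x i, R x i → R (g k * x) (t k i))
    (Smul : ∀ k x i, S x i → S (h k * x) (t k i))
    (par : ∀ i, i ≠ z → ∃ k j, j < i ∧ t k j = i)
    (Rx : ∀ x x' i, R x i → R x' i → x = x') (Ri : ∀ x i j, R x i → R x j → i = j)
    (Sx : ∀ x x' i, S x i → S x' i → x = x') (Si : ∀ x i j, S x i → S x j → i = j) :
    Nat.card (Subgroup.closure (Set.range g)) = N ∧ Nat.card (Subgroup.closure (Set.range h)) = N ∧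
      Nonempty (Subgroup.closure (Set.range g) ≃* Subgroup.closure (Set.range h)) := by
  classical
  let D : Subgroup (G × H) := Subgroup.closure (Set.range fun k => (g k, h k))
  have hmem : ∀ d ∈ D, ∃ i, R d.1 i ∧ S d.2 i := by
    intro d hd
    change d ∈ (Subgroup.closure (Set.range fun k => (g k, h k))).toSubmonoid at hd
    rw [Subgroup.closure_toSubmonoid_of_finite] at hd
    induction hd using Submonoid.closure_induction_left with
    | one => exact ⟨z, R1, S1⟩
    | mul_left x hx y _ ih =>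
      obtain ⟨k, rfl⟩ := hx
      obtain ⟨i, h1, h2⟩ := ih
      exact ⟨t k i, Rmul k _ i h1, Smul k _ i h2⟩
  have hex : ∀ i : Fin N, ∃ d ∈ D, R d.1 i ∧ S d.2 i := by
    intro i
    induction i using WellFoundedLT.induction with
    | _ i ih =>
      by_cases hi : i = z
      · exact ⟨1, D.one_mem, hi ▸ R1, hi ▸ S1⟩
      obtain ⟨k, j, hj, rfl⟩ := par i hi
      obtain ⟨d, hd, h1, h2⟩ := ih j hj
      exact ⟨(g k, h k) * d, D.mul_mem (Subgroup.subset_closure ⟨k, rfl⟩) hd, Rmul k _ j h1, Smul k _ j h2⟩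
  choose idx hidx1 hidx2 using fun d : D => hmem d d.2
  have hcard : Nat.card D = N := by
    refine (Nat.card_congr (Equiv.ofBijective idx ⟨fun a b e => Subtype.ext (Prod.ext ?_ ?_), fun i => ?_⟩)).trans
      (Nat.card_fin N)
    · exact Rx _ _ _ (hidx1 a) (e ▸ hidx1 b)
    · exact Sx _ _ _ (hidx2 a) (e ▸ hidx2 b)
    · obtain ⟨d, hd, h1, -⟩ := hex i
      exact ⟨⟨d, hd⟩, Ri _ _ _ (hidx1 ⟨d, hd⟩) h1⟩
  have e1 : D.map (MonoidHom.fst G H) = Subgroup.closure (Set.range g) := by
    rw [MonoidHom.map_closure, ← Set.range_comp]; rfl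
  have e2 : D.map (MonoidHom.snd G H) = Subgroup.closure (Set.range h) := by
    rw [MonoidHom.map_closure, ← Set.range_comp]; rfl
  have i1 : Function.Injective ((MonoidHom.fst G H).comp D.subtype) := by
    intro a b e
    have e' : a.1.1 = b.1.1 := e
    have := Ri _ _ _ (hidx1 a) (e' ▸ hidx1 b)
    exact Subtype.ext (Prod.ext e' (Sx _ _ _ (hidx2 a) (this ▸ hidx2 b)))
  have i2 : Function.Injective ((MonoidHom.snd G H).comp D.subtype) := by
    intro a b e
    have e' : a.1.2 = b.1.2 := e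
    have := Si _ _ _ (hidx2 a) (e' ▸ hidx2 b)
    exact Subtype.ext (Prod.ext (Rx _ _ _ (hidx1 a) (this ▸ hidx1 b)) e')
  have f1 : D ≃* Subgroup.closure (Set.range g) :=
    (MonoidHom.ofInjective i1).trans (MulEquiv.subgroupCongr (by rw [← e1, MonoidHom.range_comp, Subgroup.range_subtype]))
  have f2 : D ≃* Subgroup.closure (Set.range h) :=
    (MonoidHom.ofInjective i2).trans (MulEquiv.subgroupCongr (by rw [← e2, MonoidHom.range_comp, Subgroup.range_subtype]))
  exact ⟨(Nat.card_congr f1.symm.toEquiv).trans hcard, (Nat.card_congr f2.symm.toEquiv).trans hcard,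
    ⟨f1.symm.trans f2⟩⟩

/-- A subgroup of the order of the Sylow subgroups is isomorphic to each of them. -/
theorem nonempty_equiv_sylow {G : Type*} [Group G] [Finite G] {p : ℕ} [Fact p.Prime] (P : Sylow p G)
    (K : Subgroup G) {n m : ℕ} (hK : Nat.card K = p ^ n) (hG : Nat.card G = p ^ n * m) (hm : ¬ p ∣ m) :
    Nonempty (↥(P : Subgroup G) ≃* K) := by
  have hf : (Nat.card G).factorization p = n := by
    have hp := (Fact.out : p.Prime)
    have hm0 : m ≠ 0 := fun e => hm (e ▸ dvd_zero p)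
    rw [hG, Nat.factorization_mul (pow_ne_zero _ hp.ne_zero) hm0, Finsupp.add_apply,
      Nat.factorization_eq_zero_of_not_dvd hm, hp.factorization_pow, Finsupp.single_eq_same, add_zero]
  exact ⟨P.equiv (Sylow.ofCard K (by rw [hK, hf]))⟩

end Cfsg.Agent.SmallOrder.SylowEight
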